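import Cfsg.Agent.H419.EP.Iface
import Cfsg.Agent.Lib.Cores

/-!
# S3499: a normal `r`-subgroup of the point stabiliser (helper245)

* `mem_of_comm` : `K` a normal `r`-subgroup of `A`, `1 ≠ k ∈ K`: `C_Q(k) ≤ A`;
* `Model.mem_normalizer` : `Â ≤ N(R)`, `R` an `r`-group, `x ∈ R ∩ S` not scalar: `C_S(x) ≤ N(R)`.
-/

set_option autoImplicit false

namespace Cfsg.Agent.H245.EP

open Subgroup Cfsg.Agent Cfsg.Agent.H284 Cfsg.Agent.H419.EP Cfsg.Geo
open scoped MatrixGroups

variable {Q : Type*} [Group Q] [Finite Q] {A : Subgroup Q} {Γ : Subgroup (MulAut Q)}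

/-- (T1) for a normal `r`-subgroup of `A` -/
theorem mem_of_comm (h : EPT A Γ) {r : ℕ} (hr : r.Prime) {K : Subgroup Q} (hKA : K ≤ A)
    (hKn : ∀ a ∈ A, ∀ k ∈ K, a * k * a⁻¹ ∈ K) (hKp : IsPGroup r K) {k : Q} (hk : k ∈ K) (hk1 : k ≠ 1) {c : Q}
    (hc : c * k = k * c) : c ∈ A := by
  have hrF : Fact r.Prime := ⟨hr⟩
  by_contra hcA
  set P : Subgroup A := pCore r A with hP
  have hKP : K.subgroupOf A ≤ P := by
    apply Lib.Cores.le_pCore
    · refine ⟨fun n hn g => ?_⟩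
      rw [mem_subgroupOf] at hn ⊢
      exact hKn g g.2 n hn
    · exact hKp.comap_of_injective A.subtype A.subtype_injective
  have hPc : P.Characteristic := Lib.Cores.pCore_characteristic r
  have hPp : IsPGroup r P := Lib.Cores.pCore_isPGroup r
  have hkP : k ∈ P.map A.subtype := ⟨⟨k, hKA hk⟩, hKP (mem_subgroupOf.2 hk), rfl⟩
  have hle : P.map A.subtype ≤ A := by
    rintro _ ⟨a, -, rfl⟩
    exact a.2
  have hinv : ∀ σ ∈ Γ, ∀ a ∈ P.map A.subtype, σ a ∈ P.map A.subtype := by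
    rintro σ hσ _ ⟨a, ha, rfl⟩
    let σ' : A ≃* A :=
      { toFun := fun a => ⟨σ a, (h.inv σ hσ a).2 a.2⟩
        invFun := fun a => ⟨σ.symm a, by
          rw [← h.inv σ hσ, MulEquiv.apply_symm_apply]
          exact a.2⟩
        left_inv := fun a => by simp
        right_inv := fun a => by simp
        map_mul' := fun a b => by
          apply Subtype.ext
          show σ ((a * b : A) : Q) = σ a * σ b
          rw [Subgroup.coe_mul, map_mul] }
    have h1 := hPc.fixed σ'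
    refine ⟨σ' a, ?_, rfl⟩
    have h2 : a ∈ P.comap σ'.toMonoidHom := by rw [h1]; exact ha
    exact h2
  have hPp' : IsPGroup r (P.map A.subtype) := hPp.map A.subtype
  have hnil : Group.IsNilpotent (P.map A.subtype) := hPp'.isNilpotent
  have hne : P.map A.subtype ≠ ⊥ := by
    intro e
    rw [e, mem_bot] at hkP
    exact hk1 hkP
  obtain ⟨-, -, -, h4, -⟩ := h.nilp _ hle hinv hnil hne
  have h5 : k ∈ P.map A.subtype ⊓ cj c A := by
    refine ⟨hkP, ?_⟩
    show k ∈ cj c A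
    rw [mem_cj]
    have h6 : c⁻¹ * k * c = k := by rw [mul_assoc, ← hc, inv_mul_cancel_left]
    rw [h6]
    exact hKA hk
  rw [(h4 c hcA).1, mem_bot] at h5
  exact hk1 h5

variable {ι : Type} [Fintype ι] [DecidableEq ι] {F : Type*} [Field F] {S : Subgroup (GL ι F)}

/-- the centralizer of a nonscalar element of `R ∩ S` normalises `R` -/
theorem mem_normalizer (h : EPT A Γ) (m : Model Q S) {R : Subgroup (GL ι F)} (hA : m.hat A ≤ subgroupNormalizer R)
    {r : ℕ} (hr : r.Prime) (hRp : IsPGroup r R) {x : GL ι F} (hx : x ∈ R) (hxS : x ∈ S) (hxs : x ∉ scalars ι F)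
    {c : GL ι F} (hcS : c ∈ S) (hcx : c * x = x * c) : c ∈ subgroupNormalizer R := by
  obtain ⟨-, hmax⟩ := m.isMaximalIn h.max
  rcases hmax (subgroupNormalizer R ⊓ S) (le_inf hA (m.hat_le A)) inf_le_right with h1 | h1
  · -- `R ∩ S ≤ Â`
    have hRS : R ⊓ S ≤ m.hat A := by
      rw [← h1]
      exact inf_le_inf_right S Subgroup.le_normalizer
    set K : Subgroup Q := ((R ⊓ S).subgroupOf S).map m.π with hK
    have hKA : K ≤ A := by
      rintro _ ⟨s, hs, rfl⟩
      exact (m.mem_hat_iff s).1 (hRS hs)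
    have hKn : ∀ a ∈ A, ∀ k ∈ K, a * k * a⁻¹ ∈ K := by
      rintro a ha _ ⟨s, hs, rfl⟩
      obtain ⟨t, rfl⟩ := m.surj a
      have ht : (t : GL ι F) ∈ subgroupNormalizer R := hA ((m.mem_hat_iff t).2 ha)
      refine ⟨t * s * t⁻¹, ?_, by rw [map_mul, map_mul, map_inv]⟩
      refine ⟨?_, (t * s * t⁻¹ : S).2⟩
      exact (Subgroup.mem_normalizer_iff.1 ht _).1 hs.1
    have hKp : IsPGroup r K := by
      apply IsPGroup.map
      have h2 : IsPGroup r (R ⊓ S : Subgroup (GL ι F)) := hRp.to_le inf_le_left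
      exact h2.comap_of_injective S.subtype S.subtype_injective
    have hkK : m.π ⟨x, hxS⟩ ∈ K := ⟨⟨x, hxS⟩, ⟨hx, hxS⟩, rfl⟩
    have hk1 : m.π ⟨x, hxS⟩ ≠ 1 := fun e => hxs ((m.ker _).1 e)
    have h2 : m.π ⟨c, hcS⟩ ∈ A := by
      refine mem_of_comm h hr hKA hKn hKp hkK hk1 ?_
      rw [← map_mul, ← map_mul]
      congr 1
      exact Subtype.ext hcx
    exact hA ((m.mem_hat_iff ⟨c, hcS⟩).2 h2)
  · have h2 : c ∈ subgroupNormalizer R ⊓ S := by rw [h1]; exact hcS
    exact h2.1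

end Cfsg.Agent.H245.EP
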