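import Cfsg.Agent.H245.EP.SixB
import Cfsg.Agent.H245.EP.Red

/-!
# S3499, class 6 in `SL_n` (helper245)
-/

set_option autoImplicit false

namespace Cfsg.Agent.H245.EP

open Subgroup Cfsg Cfsg.Agent Cfsg.Agent.H920 Cfsg.Geo Matrix Cfsg.Agent.ClassicalGeometry.SympBasic
open scoped MatrixGroups

variable {ι : Type} [Fintype ι] [DecidableEq ι] {F : Type*} [Field F]

theorem exists_fixed [Nonempty ι] {r k : ℕ} (hr : r.Prime) (hrF : (r : F) ≠ 0) (hcard : Fintype.card ι = r ^ k)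
    {R : Subgroup (GL ι F)} (h : ActsAbsolutelyIrreducibly (matrixSet R))
    (hcomm : ∀ x ∈ R, ∀ y ∈ R, x * y * x⁻¹ * y⁻¹ ∈ scalars ι F) {x : GL ι F} (hx : x ∈ R) (hxs : x ∉ scalars ι F)
    (hxr : x ^ r = 1) : ∃ v : ι → F, v ≠ 0 ∧ (x : Matrix ι ι F) *ᵥ v = v := by
  classical
  obtain ⟨X, hX⟩ : ∃ X, X = (x : Matrix ι ι F) := ⟨_, rfl⟩
  have hXr : X ^ r = 1 := by rw [hX, ← Units.val_pow_eq_pow_val, hxr]; rfl
  obtain ⟨s, hs⟩ : ∃ s, s = ∑ i ∈ Finset.range r, X ^ i := ⟨_, rfl⟩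
  have hXs : X * s = s := by
    have h1 : X * s + 1 = s + X ^ r := by
      rw [hs, Finset.mul_sum]
      have h2 := Finset.sum_range_succ (fun i => X ^ i) r
      have h3 := Finset.sum_range_succ' (fun i => X ^ i) r
      simp only [pow_succ', pow_zero] at h3
      rw [← h3, h2]
    rw [hXr] at h1
    exact add_right_cancel h1
  have htr : s.trace = (Fintype.card ι : F) := by
    rw [hs, Matrix.trace_sum, Finset.sum_eq_single_of_mem 0 (Finset.mem_range.2 hr.pos)]
    · rw [pow_zero, Matrix.trace_one]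
    · intro i hi hi0
      rw [hX, ← Units.val_pow_eq_pow_val]
      apply trace_eq_zero h hcomm (R.pow_mem hx i)
      intro h1
      apply hxs
      have h2 : Nat.Coprime i r := by
        rw [Nat.coprime_comm]
        exact (Nat.Prime.coprime_iff_not_dvd hr).2 fun h3 =>
          absurd (Nat.le_of_dvd (Nat.pos_of_ne_zero hi0) h3) (not_le.2 (Finset.mem_range.1 hi))
      obtain ⟨m, -, hm⟩ := Nat.exists_mul_mod_eq_one_of_coprime h2 hr.one_lt
      have h3 : x = (x ^ i) ^ m := by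
        rw [← pow_mul, ← Nat.div_add_mod (i * m) r, pow_add, pow_mul, hxr, one_pow, one_mul, hm, pow_one]
      rw [h3]
      exact Subgroup.pow_mem _ h1 m
  have hs0 : s ≠ 0 := by
    rintro rfl
    rw [Matrix.trace_zero, hcard, Nat.cast_pow] at htr
    exact pow_ne_zero _ hrF htr.symm
  obtain ⟨j, hj⟩ : ∃ j, s *ᵥ (Pi.single j 1) ≠ 0 := by
    by_contra hcon
    push Not at hcon
    apply hs0
    ext i j
    have h1 := congrFun (hcon j) i
    rw [Matrix.mulVec_single_one] at h1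
    exact h1
  refine ⟨_, hj, ?_⟩
  rw [Matrix.mulVec_mulVec, ← hX, hXs]

theorem exists_cube [Finite F] (h : 5 ≤ Nat.card F) : ∃ a : F, a ≠ 0 ∧ a ≠ 1 ∧ a ^ 3 ≠ 1 := by
  classical
  have := Fintype.ofFinite F
  obtain ⟨g, hg⟩ := IsCyclic.exists_generator (α := Fˣ)
  have h1 : orderOf g = Nat.card F - 1 := by
    rw [orderOf_eq_card_of_forall_mem_zpowers hg, Nat.card_eq_fintype_card, Fintype.card_units,
      Nat.card_eq_fintype_card]
  have h2 : (g : F) ^ 3 ≠ 1 := by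
    intro e
    have h3 : g ^ 3 = 1 := Units.ext (by rw [Units.val_pow_eq_pow_val, e]; rfl)
    have h4 := Nat.le_of_dvd (by norm_num) (orderOf_dvd_of_pow_eq_one h3)
    omega
  exact ⟨g, g.ne_zero, fun e => h2 (by rw [e, one_pow]), h2⟩

/-- the linear algebra of class 6 in `SL_n` -/
theorem kill_six [Fintype F] (hn : 3 ≤ Fintype.card ι) (h34 : ¬ (Fintype.card ι = 3 ∧ Fintype.card F = 4)) {r : ℕ}
    {R : Subgroup (GL ι F)} (hR : IsLinearSymplecticTypeData r R)
    (H : ∀ x ∈ R, x ∈ specialLinear ι F → x ∉ scalars ι F → ∀ c ∈ specialLinear ι F, c * x = x * c →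
      c ∈ subgroupNormalizer R) : False := by
  classical
  have hne : Nonempty ι := Fintype.card_pos_iff.1 (by omega)
  have hfin : Finite (GL ι F) := inferInstance
  have hfinR : Finite R := inferInstance
  obtain ⟨hsy, habs, p, e, hrp, hmin, hcase⟩ := hR
  have hr := hsy.prime
  have hrFact : Fact r.Prime := ⟨hr⟩
  obtain ⟨hp, hchar, hFcard, -⟩ := hmin
  have hrF : (r : F) ≠ 0 := by
    rw [Ne, CharP.cast_eq_zero_iff F p]
    intro h
    exact hrp ((Nat.prime_dvd_prime_iff_eq hp hr).1 h).symm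
  obtain ⟨k, hk1, ht, hZk⟩ : ∃ k, 1 ≤ k ∧ IsType r k R ∧ Nat.card (Subgroup.center R) ∣ r ^ k := by
    rcases hcase with ⟨hodd, -, hZ, k, hk, hc⟩ | ⟨h2, -, hZ, h4, k, hc⟩ | ⟨-, -, h2, -⟩
    · exact ⟨k, hk, Or.inl ⟨hodd, hZ, hc⟩, by rw [hZ]; exact dvd_pow_self r (by omega)⟩
    · have ht : IsType r k R := Or.inr ⟨h2, hZ, hc⟩
      have h5 := card_of_type hsy habs ht
      have h6 : 2 ≤ k := by
        by_contra hcon
        have h7 : k = 0 ∨ k = 1 := by omega
        rcases h7 with h7 | h7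
        · rw [h7, pow_zero] at h5; omega
        · rw [h7, pow_one, h2] at h5; omega
      refine ⟨k, by omega, ht, ?_⟩
      rw [hZ, h2]
      exact pow_dvd_pow 2 h6
    · omega
  have hcard := card_of_type hsy habs ht
  have hcomm := comm_of_type hsy habs ht
  have hpow := pow_of_type hsy habs ht
  obtain ⟨C⟩ := exists_coord habs hcomm hr hk1 hpow hcard
  -- determinants
  have hdZ : ∀ z ∈ R, z ∈ scalars ι F → z ∈ specialLinear ι F := by
    intro z hz hzs
    obtain ⟨c, hc⟩ := (mem_scalars_iff _).1 hzs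
    have h1 := pow_card_center habs hz hc
    rw [mem_sl, hc, Matrix.det_smul, Matrix.det_one, mul_one, hcard]
    obtain ⟨m, hm⟩ := hZk
    rw [hm, pow_mul, h1, one_pow]
  have hdR : ∀ x ∈ R, (x : Matrix ι ι F).det ^ r = 1 := by
    intro x hx
    have h1 := hdZ _ (R.pow_mem hx r) (hpow x hx)
    rw [mem_sl, Units.val_pow_eq_pow_val, Matrix.det_pow] at h1
    exact h1
  obtain ⟨i0, hi0⟩ : ∃ i0 : Fin k, (i0 : ℕ) = 0 := ⟨⟨0, hk1⟩, rfl⟩
  -- a nonscalar element of determinant one in a hyperbolic plane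
  obtain ⟨x, hxd, hxs, hxφ⟩ : ∃ x : R, (x : GL ι F) ∈ specialLinear ι F ∧ (x : GL ι F) ∉ scalars ι F ∧
      ∀ j, j ≠ i0 → C.φ x (Sum.inl j) = 0 ∧ C.φ x (Sum.inr j) = 0 := by
    obtain ⟨x₀, hx₀⟩ := C.surj (Pi.single (Sum.inl i0) 1)
    obtain ⟨y₀, hy₀⟩ := C.surj (Pi.single (Sum.inr i0) 1)
    by_cases h1 : ((x₀ : GL ι F) : Matrix ι ι F).det = 1
    · refine ⟨x₀, mem_sl.2 h1, ?_, ?_⟩
      · rw [← C.ker_iff, hx₀]
        intro h2
        have := congrFun h2 (Sum.inl i0)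
        simp at this
      · intro j hj
        rw [hx₀]
        simp [hj]
    · have h2 : IsPrimitiveRoot ((x₀ : GL ι F) : Matrix ι ι F).det r := by
        have h3 := IsPrimitiveRoot.orderOf ((x₀ : GL ι F) : Matrix ι ι F).det
        rwa [orderOf_eq_prime (hdR _ x₀.2) h1] at h3
      obtain ⟨m, -, hm⟩ := h2.eq_pow_of_pow_eq_one (hdR _ y₀.2)
      have h3 : ∀ m : ℕ, C.φ (y₀ * x₀⁻¹ ^ m) (Sum.inr i0) = 1 ∧
          ∀ j, j ≠ i0 → C.φ (y₀ * x₀⁻¹ ^ m) (Sum.inl j) = 0 ∧ C.φ (y₀ * x₀⁻¹ ^ m) (Sum.inr j) = 0 := by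
        intro m
        induction m with
        | zero =>
          rw [pow_zero, mul_one, hy₀]
          refine ⟨by simp, fun j hj => by simp [hj]⟩
        | succ m ih =>
          rw [pow_succ, ← mul_assoc, C.map_mul, C.φ_inv, hx₀]
          refine ⟨?_, fun j hj => ⟨?_, ?_⟩⟩
          · rw [Pi.add_apply, ih.1]; simp
          · rw [Pi.add_apply, (ih.2 j hj).1]; simp [hj]
          · rw [Pi.add_apply, (ih.2 j hj).2]; simp
      refine ⟨y₀ * x₀⁻¹ ^ m, ?_, ?_, (h3 m).2⟩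
      · have h4 : (y₀ * x₀⁻¹ ^ m : R) = y₀ * (x₀ ^ m)⁻¹ := by rw [inv_pow]
        rw [h4, Subgroup.coe_mul, Subgroup.coe_inv, Subgroup.coe_pow, specialLinear, MonoidHom.mem_ker, map_mul, map_inv,
          map_pow, mul_inv_eq_one]
        apply Units.ext
        rw [Units.val_pow_eq_pow_val, GeneralLinearGroup.val_det_apply, GeneralLinearGroup.val_det_apply, hm]
      · rw [← C.ker_iff]
        intro h4
        have := (h3 m).1
        rw [h4] at this
        exact zero_ne_one this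
  -- normalise `x ^ r = 1`
  obtain ⟨x, hxd, hxs, hxφ, hxr⟩ : ∃ x : R, (x : GL ι F) ∈ specialLinear ι F ∧ (x : GL ι F) ∉ scalars ι F ∧
      (∀ j, j ≠ i0 → C.φ x (Sum.inl j) = 0 ∧ C.φ x (Sum.inr j) = 0) ∧ (x : GL ι F) ^ r = 1 := by
    obtain ⟨z, hz, hzx⟩ := full_of_type hsy habs ht x
    have hzs := mem_scalars_of_mem_center habs hz
    refine ⟨z * x, ?_, ?_, ?_, ?_⟩
    · exact Subgroup.mul_mem _ (hdZ _ z.2 hzs) hxd
    · intro h1
      exact hxs ((Subgroup.mul_mem_cancel_left _ hzs).1 h1)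
    · rw [C.map_mul, (C.ker_iff z).2 hzs, zero_add]
      exact hxφ
    · exact congrArg Subtype.val hzx
  obtain ⟨y, hxy⟩ : ∃ y : R, (x : GL ι F) * y ≠ y * x := by
    by_contra hcon
    push Not at hcon
    exact hxs (mem_scalars_of_comm' habs fun y hy => hcon ⟨y, hy⟩)
  obtain ⟨ζ, hζ⟩ : ∃ ζ, ζ = C.χ (sympForm k (ZMod r) (C.φ x) (C.φ y)) := ⟨_, rfl⟩
  have hxy' := C.comm x y
  rw [← hζ] at hxy'
  have hζ1 : ζ ≠ 1 := by
    intro h1
    apply hxy
    apply Units.ext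
    rw [Units.val_mul, Units.val_mul, hxy', h1, one_smul]
  have hζr : ζ ^ r = 1 := by
    rw [hζ, ← AddChar.map_nsmul_eq_pow, nsmul_eq_mul, ZMod.natCast_self, zero_mul, AddChar.map_zero_eq_one]
  have hfix := exists_fixed hr hrF hcard habs hcomm x.2 hxs hxr
  have Hx := H x x.2 hxd hxs
  rcases Nat.lt_or_ge 1 k with hk2 | hk2
  · -- `k ≥ 2`
    obtain ⟨i1, hi1⟩ : ∃ i1 : Fin k, (i1 : ℕ) = 1 := ⟨⟨1, hk2⟩, rfl⟩
    have hi : i1 ≠ i0 := by
      intro h1
      rw [h1, hi0] at hi1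
      omega
    obtain ⟨u, hu⟩ := C.surj (Pi.single (Sum.inl i1) 1)
    obtain ⟨w, hw⟩ := C.surj (Pi.single (Sum.inr i1) 1)
    obtain ⟨ha, hb⟩ := hxφ i1 hi
    have h1 : sympForm k (ZMod r) (C.φ x) (C.φ u) = 0 := by
      rw [sympForm_eq_sum, hu]
      refine Finset.sum_eq_zero fun i _ => ?_
      by_cases h2 : i = i1
      · subst h2; simp [ha, hb]
      · simp [h2]
    have h2 : sympForm k (ZMod r) (C.φ x) (C.φ w) = 0 := by
      rw [sympForm_eq_sum, hw]
      refine Finset.sum_eq_zero fun i _ => ?_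
      by_cases h2 : i = i1
      · subst h2; simp [ha, hb]
      · simp [h2]
    have h3 : sympForm k (ZMod r) (C.φ u) (C.φ w) ≠ 0 := by
      rw [sympForm_eq_sum, hu, hw, Finset.sum_eq_single_of_mem i1 (Finset.mem_univ _)]
      · simp
      · intro i _ h2
        simp [h2]
    have e1 := C.comm x u
    have e2 := C.comm x w
    have e3 := C.comm u w
    rw [h1, AddChar.map_zero_eq_one, one_smul] at e1
    rw [h2, AddChar.map_zero_eq_one, one_smul] at e2
    exact kill_transv hp hr hrp hsy.pGroup y.2 hfix Hx hζ1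
      (fun h4 => h3 (C.inj (h4.trans (AddChar.map_zero_eq_one C.χ).symm))) hxy' e1 e2 e3
  · -- `k = 1`
    have hk : k = 1 := by omega
    rw [hk, pow_one] at hcard
    have hr3 : 3 ≤ r := by omega
    have hF5 : 5 ≤ Nat.card F := by
      have h1 : ζ ^ (Fintype.card F - 1) = 1 := by
        apply FiniteField.pow_card_sub_one_eq_one
        rintro h1
        rw [h1, zero_pow hr.ne_zero] at hζr
        exact zero_ne_one hζr
      have h2 : r ∣ Fintype.card F - 1 := by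
        rw [← orderOf_eq_prime hζr hζ1]
        exact orderOf_dvd_of_pow_eq_one h1
      have h3 : 1 < Fintype.card F := Fintype.one_lt_card
      have h4 := Nat.le_of_dvd (by omega) h2
      rw [Nat.card_eq_fintype_card]
      by_contra hcon
      exact h34 ⟨by omega, by omega⟩
    obtain ⟨a, ha0, ha1, ha3⟩ := exists_cube hF5
    exact kill_torus hr hr3 hrF hcomm y.2 hxr hfix Hx hζr hζ1 hxy' ha0 ha1 (fun _ => ha3)

/-- **S3499-III-SL-C6** -/
theorem sl_c6 {Q : Type*} [Group Q] [Finite Q] {A : Subgroup Q} {Γ : Subgroup (MulAut Q)} (h : H284.EPT A Γ)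
    [Fintype F] (m : H419.EP.Model Q (specialLinear ι F)) (hn : 3 ≤ Fintype.card ι)
    (h34 : ¬ (Fintype.card ι = 3 ∧ Fintype.card F = 4)) {r : ℕ} {R : Subgroup (GL ι F)}
    (hR : IsLinearSymplecticTypeData r R) (hA : m.hat A ≤ subgroupNormalizer R) : False :=
  kill_six hn h34 hR fun _ hx hxS hxs _ hc hcx =>
    mem_normalizer h m hA hR.symplecticType.prime hR.symplecticType.pGroup hx hxS hxs hc hcx


/-- the same in the shape of the poster -/
theorem sl_c6' {Q : Type*} [Group Q] [Finite Q] (_hs : IsSimpleGroup Q) {A : Subgroup Q} {Γ : Subgroup (MulAut Q)}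
    (h : H284.EPT A Γ) {F : Type*} [Field F] [Fintype F] {n : ℕ} (m : H419.EP.Model Q (specialLinear (Fin n) F))
    (hn : 3 ≤ n) (h34 : ¬ (n = 3 ∧ Fintype.card F = 4)) {r : ℕ} {R : Subgroup (GL (Fin n) F)}
    (hR : IsLinearSymplecticTypeData r R) {M : Subgroup (GL (Fin n) F)} (hM : M ≤ subgroupNormalizer R)
    (hA : m.hat A ≤ M) : False :=
  sl_c6 h m (by rw [Fintype.card_fin]; exact hn) (by rw [Fintype.card_fin]; exact h34) hR (hA.trans hM)

end Cfsg.Agent.H245.EP
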