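import Cfsg.Agent.H920.CsData

/-!
# S3499, class 6 in `SL_n`: linear algebra (helper245)

`R` absolutely irreducible of symplectic type. `kill_transv`: dimension `r ^ k`, `k ≥ 2`. `kill_torus`: `k = 1`.
-/

set_option autoImplicit false

namespace Cfsg.Agent.H245.EP

open Subgroup Cfsg Cfsg.Agent Cfsg.Agent.H920 Cfsg.Geo Matrix Cfsg.Agent.ClassicalGeometry.SympBasic
open scoped MatrixGroups

variable {ι : Type} [Fintype ι] [DecidableEq ι] {F : Type*} [Field F]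

theorem mem_sl {g : GL ι F} : g ∈ specialLinear ι F ↔ (g : Matrix ι ι F).det = 1 := by
  rw [specialLinear, MonoidHom.mem_ker]
  constructor
  · intro h
    have := congrArg Units.val h
    simpa using this
  · intro h
    apply Units.ext
    simpa using h

theorem one_add_pow' {A : Type*} [Ring A] {y : A} (hy : y * y = 0) (n : ℕ) : (1 + y) ^ n = 1 + n • y := by
  induction n with
  | zero => simp
  | succ n ih => rw [pow_succ, ih, add_mul, one_mul, smul_mul_assoc, mul_add, mul_one, hy, add_zero, add_assoc,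
      ← succ_nsmul']

/-- a unipotent element of an `r`-group is trivial -/
theorem eq_one_of_sq {p r : ℕ} [CharP F p] (hp : p.Prime) (hr : r.Prime) (hrp : r ≠ p) {R : Subgroup (GL ι F)}
    (hRp : IsPGroup r R) {d : GL ι F} (hd : d ∈ R) {M : Matrix ι ι F} (hdM : (d : Matrix ι ι F) = 1 + M)
    (hM : M * M = 0) : M = 0 := by
  have h1 : d ^ p = 1 := by
    apply Units.ext
    rw [Units.val_pow_eq_pow_val, hdM, one_add_pow' hM, ← Nat.cast_smul_eq_nsmul F, CharP.cast_eq_zero, zero_smul,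
      add_zero, Units.val_one]
  obtain ⟨j, hj⟩ := hRp ⟨d, hd⟩
  have h2 : d ^ r ^ j = 1 := by
    have := congrArg Subtype.val hj
    simpa using this
  have h3 : Nat.Coprime p (r ^ j) := Nat.Coprime.pow_right _ ((Nat.coprime_primes hp hr).2 (Ne.symm hrp))
  have h4 : d = 1 := by
    rw [← orderOf_eq_one_iff]
    apply Nat.dvd_one.1
    rw [← h3.gcd_eq_one]
    exact Nat.dvd_gcd (orderOf_dvd_of_pow_eq_one h1) (orderOf_dvd_of_pow_eq_one h2)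
  rw [h4, Units.val_one] at hdM
  exact (left_eq_add.1 hdM)

/-- the transvection argument -/
theorem kill_transv [Finite F] {p r : ℕ} [CharP F p] (hp : p.Prime) (hr : r.Prime) (hrp : r ≠ p) {R : Subgroup (GL ι F)}
    (hRp : IsPGroup r R) {x y u w : GL ι F} (hy : y ∈ R)
    (hx1 : ∃ v : ι → F, v ≠ 0 ∧ (x : Matrix ι ι F) *ᵥ v = v)
    (H : ∀ c ∈ specialLinear ι F, c * x = x * c → c ∈ subgroupNormalizer R) {ζ η : F} (hζ : ζ ≠ 1) (hη : η ≠ 1)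
    (hxy : (x : Matrix ι ι F) * (y : Matrix ι ι F) = ζ • ((y : Matrix ι ι F) * (x : Matrix ι ι F)))
    (hux : (x : Matrix ι ι F) * (u : Matrix ι ι F) = (u : Matrix ι ι F) * (x : Matrix ι ι F))
    (hwx : (x : Matrix ι ι F) * (w : Matrix ι ι F) = (w : Matrix ι ι F) * (x : Matrix ι ι F))
    (huw : (u : Matrix ι ι F) * (w : Matrix ι ι F) = η • ((w : Matrix ι ι F) * (u : Matrix ι ι F))) : False := by
  classical
  obtain ⟨X, hX⟩ : ∃ X, X = (x : Matrix ι ι F) := ⟨_, rfl⟩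
  obtain ⟨Y, hY⟩ : ∃ Y, Y = (y : Matrix ι ι F) := ⟨_, rfl⟩
  obtain ⟨U, hU⟩ : ∃ U, U = (u : Matrix ι ι F) := ⟨_, rfl⟩
  obtain ⟨W, hW⟩ : ∃ W, W = (w : Matrix ι ι F) := ⟨_, rfl⟩
  obtain ⟨Yi, hYi⟩ : ∃ Yi, Yi = ((y⁻¹ : GL ι F) : Matrix ι ι F) := ⟨_, rfl⟩
  have hYY : Y * Yi = 1 := by rw [hY, hYi, ← Units.val_mul, mul_inv_cancel]; rfl
  have hYY' : Yi * Y = 1 := by rw [hY, hYi, ← Units.val_mul, inv_mul_cancel]; rfl
  rw [← hX, ← hY] at hxy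
  rw [← hX, ← hU] at hux
  rw [← hX, ← hW] at hwx
  rw [← hU, ← hW] at huw
  rw [← hX] at hx1
  obtain ⟨v₁, hv₁, hXv₁⟩ := hx1
  -- a left fixed vector
  obtain ⟨φ, hφ0, hφ⟩ : ∃ φ : ι → F, φ ≠ 0 ∧ φ ᵥ* X = φ := by
    have h1 : (X - 1).det = 0 := by
      rw [← Matrix.exists_mulVec_eq_zero_iff]
      exact ⟨v₁, hv₁, by rw [Matrix.sub_mulVec, hXv₁, Matrix.one_mulVec, sub_self]⟩
    rw [← Matrix.exists_vecMul_eq_zero_iff] at h1
    obtain ⟨φ, h2, h3⟩ := h1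
    refine ⟨φ, h2, ?_⟩
    rw [Matrix.vecMul_sub, Matrix.vecMul_one, sub_eq_zero] at h3
    exact h3
  -- a second fixed vector
  obtain ⟨v₂, hXv₂, hv₂⟩ : ∃ v₂ : ι → F, X *ᵥ v₂ = v₂ ∧ ∀ c : F, v₂ ≠ c • v₁ := by
    by_contra hcon
    push Not at hcon
    obtain ⟨α, hα⟩ := hcon (U *ᵥ v₁) (by rw [Matrix.mulVec_mulVec, hux, ← Matrix.mulVec_mulVec, hXv₁])
    obtain ⟨β, hβ⟩ := hcon (W *ᵥ v₁) (by rw [Matrix.mulVec_mulVec, hwx, ← Matrix.mulVec_mulVec, hXv₁])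
    have h1 : (U * W) *ᵥ v₁ = (W * U) *ᵥ v₁ := by
      rw [← Matrix.mulVec_mulVec, ← Matrix.mulVec_mulVec, hα, hβ, Matrix.mulVec_smul, Matrix.mulVec_smul, hα, hβ,
        smul_smul, smul_smul, mul_comm]
    rw [huw, Matrix.smul_mulVec] at h1
    have h2 : (η - 1) • ((W * U) *ᵥ v₁) = 0 := by rw [sub_smul, one_smul, h1, sub_self]
    rcases smul_eq_zero.1 h2 with h3 | h3
    · exact hη (sub_eq_zero.1 h3)
    · apply hv₁
      have h4 : (w * u : GL ι F).1 *ᵥ v₁ = 0 := by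
        rw [Units.val_mul, ← hW, ← hU]
        exact h3
      have h5 : ((w * u)⁻¹ : GL ι F).1 *ᵥ ((w * u : GL ι F).1 *ᵥ v₁) = v₁ := by
        rw [Matrix.mulVec_mulVec, ← Units.val_mul, inv_mul_cancel, Units.val_one, Matrix.one_mulVec]
      rw [← h5, h4, Matrix.mulVec_zero]
  -- a fixed vector in the kernel of `φ`
  obtain ⟨v, hv0, hXv, hφv⟩ : ∃ v : ι → F, v ≠ 0 ∧ X *ᵥ v = v ∧ φ ⬝ᵥ v = 0 := by
    by_cases h1 : φ ⬝ᵥ v₁ = 0
    · exact ⟨v₁, hv₁, hXv₁, h1⟩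
    · refine ⟨v₂ - ((φ ⬝ᵥ v₂) / (φ ⬝ᵥ v₁)) • v₁, ?_, ?_, ?_⟩
      · intro h2
        exact hv₂ _ (sub_eq_zero.1 h2)
      · rw [Matrix.mulVec_sub, Matrix.mulVec_smul, hXv₁, hXv₂]
      · rw [dotProduct_sub, dotProduct_smul, smul_eq_mul, div_mul_cancel₀ _ h1, sub_self]
  -- the transvection
  obtain ⟨N, hN⟩ : ∃ N, N = Matrix.vecMulVec v φ := ⟨_, rfl⟩
  have hN0 : N ≠ 0 := by
    obtain ⟨i, hi⟩ := Function.ne_iff.1 hv0
    obtain ⟨j, hj⟩ := Function.ne_iff.1 hφ0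
    intro e
    have h1 : N i j = 0 := by rw [e]; rfl
    rw [hN, Matrix.vecMulVec_apply] at h1
    exact (mul_ne_zero hi hj) h1
  have hXN : X * N = N := by rw [hN, Matrix.mul_vecMulVec, hXv]
  have hNX : N * X = N := by rw [hN, Matrix.vecMulVec_mul, hφ]
  have hNAN : ∀ B : Matrix ι ι F, φ ⬝ᵥ (B *ᵥ v) = 0 → N * B * N = 0 := by
    intro B hB
    rw [hN, Matrix.vecMulVec_mul, Matrix.vecMulVec_mul_vecMulVec, ← Matrix.dotProduct_mulVec, hB, zero_smul]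
    ext i j
    simp [Matrix.vecMulVec_apply]
  have hNN : N * N = 0 := by
    have := hNAN 1 (by rw [Matrix.one_mulVec]; exact hφv)
    rwa [Matrix.mul_one] at this
  -- `φ Y v = 0`, `φ Y⁻¹ v = 0`
  have hφY : φ ⬝ᵥ (Y *ᵥ v) = 0 := by
    have h1 : φ ⬝ᵥ (Y *ᵥ v) = ζ * (φ ⬝ᵥ (Y *ᵥ v)) := by
      calc φ ⬝ᵥ (Y *ᵥ v) = (φ ᵥ* X) ⬝ᵥ (Y *ᵥ v) := by rw [hφ]
        _ = φ ⬝ᵥ ((X * Y) *ᵥ v) := by rw [← Matrix.dotProduct_mulVec, Matrix.mulVec_mulVec]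
        _ = ζ * (φ ⬝ᵥ ((Y * X) *ᵥ v)) := by rw [hxy, Matrix.smul_mulVec, dotProduct_smul, smul_eq_mul]
        _ = ζ * (φ ⬝ᵥ (Y *ᵥ v)) := by rw [← Matrix.mulVec_mulVec, hXv]
    have h2 : (ζ - 1) * (φ ⬝ᵥ (Y *ᵥ v)) = 0 := by rw [sub_mul, one_mul, ← h1, sub_self]
    exact (mul_eq_zero.1 h2).resolve_left (sub_ne_zero.2 hζ)
  have hxy' : Yi * X = ζ • (X * Yi) := by
    have h1 : Yi * (X * Y) * Yi = ζ • (Yi * (Y * X) * Yi) := by rw [hxy, Matrix.mul_smul, Matrix.smul_mul]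
    have h2 : Yi * (X * Y) * Yi = Yi * X := by
      rw [Matrix.mul_assoc, Matrix.mul_assoc, hYY, Matrix.mul_one]
    have h3 : Yi * (Y * X) * Yi = X * Yi := by
      rw [← Matrix.mul_assoc Yi, hYY', Matrix.one_mul]
    rwa [h2, h3] at h1
  have hφYi : φ ⬝ᵥ (Yi *ᵥ v) = 0 := by
    have h1 : φ ⬝ᵥ (Yi *ᵥ v) = ζ * (φ ⬝ᵥ (Yi *ᵥ v)) := by
      calc φ ⬝ᵥ (Yi *ᵥ v) = φ ⬝ᵥ ((Yi * X) *ᵥ v) := by rw [← Matrix.mulVec_mulVec, hXv]
        _ = ζ * (φ ⬝ᵥ ((X * Yi) *ᵥ v)) := by rw [hxy', Matrix.smul_mulVec, dotProduct_smul, smul_eq_mul]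
        _ = ζ * ((φ ᵥ* X) ⬝ᵥ (Yi *ᵥ v)) := by rw [← Matrix.dotProduct_mulVec, Matrix.mulVec_mulVec]
        _ = ζ * (φ ⬝ᵥ (Yi *ᵥ v)) := by rw [hφ]
    have h2 : (ζ - 1) * (φ ⬝ᵥ (Yi *ᵥ v)) = 0 := by rw [sub_mul, one_mul, ← h1, sub_self]
    exact (mul_eq_zero.1 h2).resolve_left (sub_ne_zero.2 hζ)
  have hNYN := hNAN Y hφY
  have hNYiN := hNAN Yi hφYi
  let t : GL ι F := ⟨1 + N, 1 - N, by
    rw [mul_sub, mul_one, add_mul, one_mul, hNN, add_zero, add_sub_cancel_right], by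
    rw [mul_add, mul_one, sub_mul, one_mul, hNN, sub_zero, sub_add_cancel]⟩
  have ht : (t : Matrix ι ι F) = 1 + N := rfl
  have hti : ((t⁻¹ : GL ι F) : Matrix ι ι F) = 1 - N := rfl
  have htS : t ∈ specialLinear ι F := by
    rw [mem_sl, ht, hN, Matrix.vecMulVec_eq Unit, Matrix.det_one_add_replicateCol_mul_replicateRow, hφv, add_zero]
  have htx : t * x = x * t := by
    apply Units.ext
    rw [Units.val_mul, Units.val_mul, ht, ← hX, add_mul, mul_add, one_mul, mul_one, hXN, hNX]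
  have htR := H t htS htx
  have hd : t * y * t⁻¹ * y⁻¹ ∈ R :=
    R.mul_mem ((Subgroup.mem_normalizer_iff.1 htR _).1 hy) (R.inv_mem hy)
  have hdM : ((t * y * t⁻¹ * y⁻¹ : GL ι F) : Matrix ι ι F) = 1 + (N - Y * N * Yi) := by
    rw [Units.val_mul, Units.val_mul, Units.val_mul, ht, hti, ← hY, ← hYi]
    have h1 : (1 + N) * Y * (1 - N) * Yi = Y * Yi + N * (Y * Yi) - Y * N * Yi - (N * Y * N) * Yi := by
      noncomm_ring
    rw [h1, hNYN, hYY]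
    noncomm_ring
  have hMM : (N - Y * N * Yi) * (N - Y * N * Yi) = 0 := by
    have h1 : (N - Y * N * Yi) * (N - Y * N * Yi) = N * N - (N * Y * N) * Yi - Y * (N * Yi * N) +
        Y * N * (Yi * Y) * N * Yi := by noncomm_ring
    rw [h1, hNN, hNYN, hNYiN, hYY', mul_one, mul_assoc Y, hNN]
    simp
  have hM0 := eq_one_of_sq hp hr hrp hRp hd hdM hMM
  have h1 : N = Y * N * Yi := sub_eq_zero.1 hM0
  have h2 : X * (Y * N * Yi) = ζ • (Y * N * Yi) := by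
    rw [← Matrix.mul_assoc, ← Matrix.mul_assoc, hxy, Matrix.smul_mul, Matrix.smul_mul, Matrix.mul_assoc Y X N, hXN]
  rw [← h1, hXN] at h2
  have h3 : (ζ - 1) • N = 0 := by rw [sub_smul, one_smul, ← h2, sub_self]
  rcases smul_eq_zero.1 h3 with h4 | h4
  · exact hζ (sub_eq_zero.1 h4)
  · exact hN0 h4

end Cfsg.Agent.H245.EP
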