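import Cfsg.Agent.H245.EP.SixA

/-!
# S3499, class 6 in `SL_n`, `n = r`: the torus argument (helper245)
-/

set_option autoImplicit false

namespace Cfsg.Agent.H245.EP

open Subgroup Cfsg Cfsg.Agent Cfsg.Agent.H920 Cfsg.Geo Matrix
open scoped MatrixGroups

variable {ι : Type} [Fintype ι] [DecidableEq ι] {F : Type*} [Field F]

section idem

variable {A : Type*} [Ring A] [Algebra F A]

/-- the fixed space projection and its conjugates -/
structure Idem (X Y Yi : A) (ζ : F) (E : ℕ → A) : Prop where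
  mul : ∀ i, E i * E i = E i
  orth : ∀ i j, ζ ^ i ≠ ζ ^ j → E i * E j = 0
  left : ∀ i, X * E i = ζ ^ i • E i
  right : ∀ i, E i * X = ζ ^ i • E i
  succ : ∀ i, Y * E i * Yi = E (i + 1)
  ne : ∀ i, E i ≠ 0

theorem exists_idem {X Y Yi : A} (hYY : Y * Yi = 1) (hYY' : Yi * Y = 1) {r : ℕ} (hr : (r : F) ≠ 0) (hX : X ^ r = 1)
    {ζ : F} (hxy : X * Y = ζ • (Y * X)) (hxy' : Yi * X = ζ • (X * Yi)) (hζ : ζ ^ r = 1) {v : A} (hv : v ≠ 0) (hXv : X * v = v) :
    ∃ E : ℕ → A, Idem X Y Yi ζ E ∧ E r = E 0 := by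
  obtain ⟨s, hs⟩ : ∃ s, s = ∑ i ∈ Finset.range r, X ^ i := ⟨_, rfl⟩
  have hXs : X * s = s := by
    have h1 : X * s + 1 = s + X ^ r := by
      rw [hs, Finset.mul_sum]
      have h2 := Finset.sum_range_succ (fun i => X ^ i) r
      have h3 := Finset.sum_range_succ' (fun i => X ^ i) r
      simp only [pow_succ', pow_zero] at h3
      rw [← h3, h2]
    rw [hX] at h1
    exact add_right_cancel h1
  have hsX : s * X = s := by
    have h1 : s * X = X * s := by
      rw [hs, Finset.mul_sum, Finset.sum_mul]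
      exact Finset.sum_congr rfl fun i _ => by rw [← pow_succ, ← pow_succ']
    rw [h1, hXs]
  have hXis : ∀ i : ℕ, X ^ i * s = s := by
    intro i
    induction i with
    | zero => rw [pow_zero, one_mul]
    | succ i ih => rw [pow_succ, mul_assoc, hXs, ih]
  have hXiv : ∀ i : ℕ, X ^ i * v = v := by
    intro i
    induction i with
    | zero => rw [pow_zero, one_mul]
    | succ i ih => rw [pow_succ, mul_assoc, hXv, ih]
  have hss : s * s = (r : F) • s := by
    nth_rewrite 1 [hs]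
    rw [Finset.sum_mul, Finset.sum_congr rfl (fun i _ => hXis i), Finset.sum_const, Finset.card_range,
      Nat.cast_smul_eq_nsmul]
  have hsv : s * v = (r : F) • v := by
    rw [hs, Finset.sum_mul, Finset.sum_congr rfl (fun i _ => hXiv i), Finset.sum_const, Finset.card_range,
      Nat.cast_smul_eq_nsmul]
  obtain ⟨e, he⟩ : ∃ e, e = (r : F)⁻¹ • s := ⟨_, rfl⟩
  have hXe : X * e = e := by rw [he, mul_smul_comm, hXs]
  have heX : e * X = e := by rw [he, smul_mul_assoc, hsX]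
  have hee : e * e = e := by
    rw [he, smul_mul_assoc, mul_smul_comm, hss, smul_smul, smul_smul, mul_assoc, inv_mul_cancel₀ hr, mul_one]
  have he0 : e ≠ 0 := by
    intro h0
    apply hv
    have h1 : e * v = v := by rw [he, smul_mul_assoc, hsv, smul_smul, inv_mul_cancel₀ hr, one_smul]
    rw [← h1, h0, zero_mul]
  have hXY : ∀ i : ℕ, X * Y ^ i = ζ ^ i • (Y ^ i * X) := by
    intro i
    induction i with
    | zero => simp
    | succ i ih =>
      rw [pow_succ, ← mul_assoc, ih, smul_mul_assoc, mul_assoc, hxy, mul_smul_comm, smul_smul, ← pow_succ, ← mul_assoc]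
  have hYX : ∀ i : ℕ, Yi ^ i * X = ζ ^ i • (X * Yi ^ i) := by
    intro i
    induction i with
    | zero => simp
    | succ i ih =>
      rw [pow_succ', mul_assoc, ih, mul_smul_comm, ← mul_assoc, hxy', smul_mul_assoc, smul_smul, ← pow_succ, mul_assoc,
        ← pow_succ']
  have hYiY : ∀ i : ℕ, Yi ^ i * Y ^ i = 1 := by
    intro i
    induction i with
    | zero => simp
    | succ i ih => rw [pow_succ, pow_succ', mul_assoc, ← mul_assoc Yi, hYY', one_mul, ih]
  have hYYi : ∀ i : ℕ, Y ^ i * Yi ^ i = 1 := by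
    intro i
    induction i with
    | zero => simp
    | succ i ih => rw [pow_succ, pow_succ', mul_assoc, ← mul_assoc Y, hYY, one_mul, ih]
  have hl : ∀ i : ℕ, X * (Y ^ i * e * Yi ^ i) = ζ ^ i • (Y ^ i * e * Yi ^ i) := by
    intro i
    rw [← mul_assoc, ← mul_assoc, hXY, smul_mul_assoc, smul_mul_assoc, mul_assoc (Y ^ i), hXe]
  have hr' : ∀ i : ℕ, (Y ^ i * e * Yi ^ i) * X = ζ ^ i • (Y ^ i * e * Yi ^ i) := by
    intro i
    rw [mul_assoc, hYX, mul_smul_comm, ← mul_assoc, mul_assoc (Y ^ i), heX]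
  refine ⟨fun i => Y ^ i * e * Yi ^ i, ⟨?_, ?_, hl, hr', ?_, ?_⟩, ?_⟩
  · intro i
    show (Y ^ i * e * Yi ^ i) * (Y ^ i * e * Yi ^ i) = Y ^ i * e * Yi ^ i
    calc (Y ^ i * e * Yi ^ i) * (Y ^ i * e * Yi ^ i) = Y ^ i * (e * (Yi ^ i * Y ^ i) * e) * Yi ^ i := by
          simp only [mul_assoc]
      _ = _ := by rw [hYiY, mul_one, hee]
  · intro i j hij
    show (Y ^ i * e * Yi ^ i) * (Y ^ j * e * Yi ^ j) = 0
    have h1 : (Y ^ i * e * Yi ^ i) * X * (Y ^ j * e * Yi ^ j) =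
        (Y ^ i * e * Yi ^ i) * (X * (Y ^ j * e * Yi ^ j)) := mul_assoc _ _ _
    rw [hl, hr', smul_mul_assoc, mul_smul_comm] at h1
    have h2 : (ζ ^ i - ζ ^ j) • ((Y ^ i * e * Yi ^ i) * (Y ^ j * e * Yi ^ j)) = 0 := by rw [sub_smul, h1, sub_self]
    exact (smul_eq_zero.1 h2).resolve_left (sub_ne_zero.2 hij)
  · intro i
    show Y * (Y ^ i * e * Yi ^ i) * Yi = Y ^ (i + 1) * e * Yi ^ (i + 1)
    rw [pow_succ', pow_succ]
    simp only [mul_assoc]
  · intro i h0
    apply he0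
    have h1 : Yi ^ i * (Y ^ i * e * Yi ^ i) * Y ^ i = 0 := by rw [h0, mul_zero, zero_mul]
    have h2 : Yi ^ i * (Y ^ i * e * Yi ^ i) * Y ^ i = (Yi ^ i * Y ^ i) * e * (Yi ^ i * Y ^ i) := by
      simp only [mul_assoc]
    rw [h2, hYiY, one_mul, mul_one] at h1
    exact h1
  · show Y ^ r * e * Yi ^ r = Y ^ 0 * e * Yi ^ 0
    have h1 : Y ^ r * X = X * Y ^ r := by
      have := hXY r
      rw [hζ, one_smul] at this
      exact this.symm
    have h2 : ∀ i : ℕ, Y ^ r * X ^ i = X ^ i * Y ^ r := by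
      intro i
      induction i with
      | zero => simp
      | succ i ih => rw [pow_succ, ← mul_assoc, ih, mul_assoc, h1, ← mul_assoc]
    have h3 : Y ^ r * e = e * Y ^ r := by
      rw [he, hs, mul_smul_comm, smul_mul_assoc, Finset.mul_sum, Finset.sum_mul]
      congr 1
      exact Finset.sum_congr rfl fun i _ => h2 i
    rw [h3, mul_assoc, hYYi, mul_one, pow_zero, pow_zero, one_mul, mul_one]

end idem

/-- the torus argument -/
theorem kill_torus {r : ℕ} (hr : r.Prime) (hr3 : 3 ≤ r) (hrF : (r : F) ≠ 0) {R : Subgroup (GL ι F)}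
    (hcomm : ∀ x ∈ R, ∀ y ∈ R, x * y * x⁻¹ * y⁻¹ ∈ scalars ι F) {x y : GL ι F} (hy : y ∈ R)
    (hxr : x ^ r = 1) (hx1 : ∃ v : ι → F, v ≠ 0 ∧ (x : Matrix ι ι F) *ᵥ v = v)
    (H : ∀ c ∈ specialLinear ι F, c * x = x * c → c ∈ subgroupNormalizer R) {ζ : F} (hζr : ζ ^ r = 1) (hζ : ζ ≠ 1)
    (hxy : (x : Matrix ι ι F) * (y : Matrix ι ι F) = ζ • ((y : Matrix ι ι F) * (x : Matrix ι ι F)))
    {a : F} (ha0 : a ≠ 0) (ha1 : a ≠ 1) (ha3 : r = 3 → a ^ 3 ≠ 1) : False := by
  classical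
  obtain ⟨X, hX⟩ : ∃ X, X = (x : Matrix ι ι F) := ⟨_, rfl⟩
  obtain ⟨Y, hY⟩ : ∃ Y, Y = (y : Matrix ι ι F) := ⟨_, rfl⟩
  obtain ⟨Yi, hYi⟩ : ∃ Yi, Yi = ((y⁻¹ : GL ι F) : Matrix ι ι F) := ⟨_, rfl⟩
  have hYY : Y * Yi = 1 := by rw [hY, hYi, ← Units.val_mul, mul_inv_cancel]; rfl
  have hYY' : Yi * Y = 1 := by rw [hY, hYi, ← Units.val_mul, inv_mul_cancel]; rfl
  rw [← hX, ← hY] at hxy
  have hxy' : Yi * X = ζ • (X * Yi) := by
    have h1 : Yi * (X * Y) * Yi = ζ • (Yi * (Y * X) * Yi) := by rw [hxy, Matrix.mul_smul, Matrix.smul_mul]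
    have h2 : Yi * (X * Y) * Yi = Yi * X := by
      rw [Matrix.mul_assoc, Matrix.mul_assoc, hYY, Matrix.mul_one]
    have h3 : Yi * (Y * X) * Yi = X * Yi := by
      rw [← Matrix.mul_assoc Yi, hYY', Matrix.one_mul]
    rwa [h2, h3] at h1
  have hXr : X ^ r = 1 := by rw [hX, ← Units.val_pow_eq_pow_val, hxr]; rfl
  obtain ⟨v, hv, hXv⟩ := hx1
  rw [← hX] at hXv
  have hV0 : Matrix.vecMulVec v v ≠ 0 := by
    obtain ⟨i, hi⟩ := Function.ne_iff.1 hv
    intro e
    have h1 : Matrix.vecMulVec v v i i = 0 := by rw [e]; rfl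
    rw [Matrix.vecMulVec_apply] at h1
    exact (mul_ne_zero hi hi) h1
  have hXV : X * Matrix.vecMulVec v v = Matrix.vecMulVec v v := by rw [Matrix.mul_vecMulVec, hXv]
  obtain ⟨E, hE, hEr⟩ := exists_idem hYY hYY' hrF hXr hxy hxy' hζr hV0 hXV
  have hrp : Fact r.Prime := ⟨hr⟩
  have hprim : IsPrimitiveRoot ζ r := by
    have h3 := IsPrimitiveRoot.orderOf ζ
    rwa [orderOf_eq_prime hζr hζ] at h3
  have hne : ∀ i j, i < r → j < r → i ≠ j → E i * E j = 0 := fun i j hi hj hij =>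
    hE.orth i j fun e => hij (hprim.pow_inj hi hj e)
  obtain ⟨b, hb⟩ : ∃ b, b = a⁻¹ := ⟨_, rfl⟩
  have hab : a * b = 1 := by rw [hb]; exact mul_inv_cancel₀ ha0
  -- the diagonal elements
  have hT : ∀ (i : ℕ) (α β : F), α * β = 1 → (1 + (α - 1) • E i) * (1 + (β - 1) • E i) = 1 := by
    intro i α β h
    have h1 : (1 + (α - 1) • E i) * (1 + (β - 1) • E i) =
        1 + ((α - 1) + (β - 1)) • E i + ((α - 1) * (β - 1)) • (E i * E i) := by
      simp only [add_mul, mul_add, one_mul, mul_one, smul_mul_smul_comm, add_smul]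
      abel
    rw [h1, hE.mul, add_assoc, ← add_smul]
    have h2 : α - 1 + (β - 1) + (α - 1) * (β - 1) = 0 := by linear_combination h
    rw [h2, zero_smul, add_zero]
  let t : GL ι F := ⟨1 + (a - 1) • E 0, 1 + (b - 1) • E 0, hT 0 a b hab, hT 0 b a (by rw [mul_comm, hab])⟩
  have ht : (t : Matrix ι ι F) = 1 + (a - 1) • E 0 := rfl
  have hti : ((t⁻¹ : GL ι F) : Matrix ι ι F) = 1 + (b - 1) • E 0 := rfl
  have hXE : ∀ i (α : F), X * (1 + α • E i) = (1 + α • E i) * X := by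
    intro i α
    rw [mul_add, add_mul, mul_one, one_mul, mul_smul_comm, smul_mul_assoc, hE.left, hE.right]
  have hYE : ∀ i (α : F), Y * (1 + α • E i) * Yi = 1 + α • E (i + 1) := by
    intro i α
    rw [mul_add, add_mul, mul_one, hYY, mul_smul_comm, smul_mul_assoc, hE.succ]
  obtain ⟨c, hc⟩ : ∃ c : GL ι F, c = t * y * t⁻¹ * y⁻¹ := ⟨_, rfl⟩
  have hcM : (c : Matrix ι ι F) = (1 + (a - 1) • E 0) * (1 + (b - 1) • E 1) := by
    rw [hc, Units.val_mul, Units.val_mul, Units.val_mul, ht, hti, ← hY, ← hYi, Matrix.mul_assoc, Matrix.mul_assoc,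
      ← Matrix.mul_assoc Y, hYE]
  have hciM : ((c⁻¹ : GL ι F) : Matrix ι ι F) = (1 + (a - 1) • E 1) * (1 + (b - 1) • E 0) := by
    have h1 : c⁻¹ = y * t * y⁻¹ * t⁻¹ := by rw [hc]; group
    rw [h1, Units.val_mul, Units.val_mul, Units.val_mul, ht, hti, ← hY, ← hYi, hYE]
  have hcS : c ∈ specialLinear ι F := by
    rw [hc, specialLinear, MonoidHom.mem_ker, map_mul, map_mul, map_mul, map_inv, map_inv]
    rw [mul_comm (GeneralLinearGroup.det t), mul_inv_cancel_right, mul_inv_cancel]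
  have hcx : c * x = x * c := by
    apply Units.ext
    rw [Units.val_mul, Units.val_mul, hcM, ← hX, ← Matrix.mul_assoc X, hXE, Matrix.mul_assoc, Matrix.mul_assoc, hXE]
  have hcR := H c hcS hcx
  obtain ⟨d, hd⟩ : ∃ d : GL ι F, d = c * y * c⁻¹ * y⁻¹ := ⟨_, rfl⟩
  have hdR : d ∈ R := by
    rw [hd]
    exact R.mul_mem ((Subgroup.mem_normalizer_iff.1 hcR _).1 hy) (R.inv_mem hy)
  obtain ⟨D, hD⟩ : ∃ D, D = (d : Matrix ι ι F) := ⟨_, rfl⟩
  have hDM : D = (1 + (a - 1) • E 0) * (1 + (b - 1) • E 1) * ((1 + (a - 1) • E 2) * (1 + (b - 1) • E 1)) := by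
    rw [hD, hd, Units.val_mul, Units.val_mul, Units.val_mul, hcM, hciM, ← hY, ← hYi]
    have h1 : Y * ((1 + (a - 1) • E 1) * (1 + (b - 1) • E 0)) * Yi =
        (1 + (a - 1) • E 2) * (1 + (b - 1) • E 1) := by
      have h2 : ∀ P P' : Matrix ι ι F, Y * (P * P') * Yi = (Y * P * Yi) * (Y * P' * Yi) := by
        intro P P'
        simp only [Matrix.mul_assoc]
        rw [← Matrix.mul_assoc Yi Y, hYY', Matrix.one_mul]
      rw [h2, hYE, hYE]
    rw [← h1]
    simp only [Matrix.mul_assoc]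
  -- `Y D Y⁻¹ = λ D`
  obtain ⟨l, hl⟩ : ∃ l : F, Y * D * Yi = l • D := by
    obtain ⟨l, hl⟩ := (mem_scalars_iff _).1 (hcomm y hy d hdR)
    refine ⟨l, ?_⟩
    have h1 : y * d * y⁻¹ = (y * d * y⁻¹ * d⁻¹) * d := by group
    have h2 := congrArg Units.val h1
    rw [Units.val_mul (y * d * y⁻¹ * d⁻¹), hl, Matrix.smul_mul, Matrix.one_mul, Units.val_mul, Units.val_mul, ← hY,
      ← hYi, ← hD] at h2
    exact h2
  have hone : ∀ i (α : F), E i * (1 + (α - 1) • E i) = α • E i := by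
    intro i α
    rw [mul_add, mul_one, mul_smul_comm, hE.mul]
    nth_rewrite 1 [← one_smul F (E i)]
    rw [← add_smul]
    congr 1
    ring
  have hzero : ∀ i j (α : F), E i * E j = 0 → E i * (1 + α • E j) = E i := by
    intro i j α h
    rw [mul_add, mul_one, mul_smul_comm, h, smul_zero, add_zero]
  have hrel : ∀ i (δ δ' : F), E i * D = δ • E i → E (i + 1) * D = δ' • E (i + 1) → δ = l * δ' := by
    intro i δ δ' h1 h2
    have h3 : E (i + 1) * (Y * D * Yi) = δ • E (i + 1) := by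
      rw [← hE.succ i]
      have h4 : Y * E i * Yi * (Y * D * Yi) = Y * (E i * D) * Yi := by
        simp only [Matrix.mul_assoc]
        rw [← Matrix.mul_assoc Yi Y, hYY', Matrix.one_mul]
      rw [h4, h1, mul_smul_comm, smul_mul_assoc]
    rw [hl, mul_smul_comm, h2, smul_smul] at h3
    have h4 : (l * δ' - δ) • E (i + 1) = 0 := by rw [sub_smul, h3, sub_self]
    rcases smul_eq_zero.1 h4 with h5 | h5
    · exact (sub_eq_zero.1 h5).symm
    · exact absurd h5 (hE.ne _)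
  have h01 := hne 0 1 (by omega) (by omega) (by omega)
  have h02 := hne 0 2 (by omega) (by omega) (by omega)
  have h10 := hne 1 0 (by omega) (by omega) (by omega)
  have h12 := hne 1 2 (by omega) (by omega) (by omega)
  have h20 := hne 2 0 (by omega) (by omega) (by omega)
  have h21 := hne 2 1 (by omega) (by omega) (by omega)
  have d0 : E 0 * D = a • E 0 := by
    rw [hDM, ← mul_assoc, ← mul_assoc, ← mul_assoc, hone, smul_mul_assoc, smul_mul_assoc, smul_mul_assoc, hzero 0 1 _ h01,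
      hzero 0 2 _ h02, hzero 0 1 _ h01]
  have d1 : E 1 * D = (b * b) • E 1 := by
    rw [hDM, ← mul_assoc, ← mul_assoc, ← mul_assoc, hzero 1 0 _ h10, hone, smul_mul_assoc, smul_mul_assoc,
      hzero 1 2 _ h12, hone, smul_smul]
  have d2 : E 2 * D = a • E 2 := by
    rw [hDM, ← mul_assoc, ← mul_assoc, ← mul_assoc, hzero 2 0 _ h20, hzero 2 1 _ h21, hone, smul_mul_assoc,
      hzero 2 1 _ h21]
  have e0 := hrel 0 _ _ d0 d1
  by_cases h5 : r = 3
  · have d3 : E 3 * D = a • E 3 := by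
      rw [← h5, hEr]
      exact d0
    have e2 := hrel 2 _ _ d2 d3
    have e3 : l = 1 := by
      have : (l - 1) * a = 0 := by linear_combination -e2
      exact sub_eq_zero.1 ((mul_eq_zero.1 this).resolve_right ha0)
    rw [e3, one_mul] at e0
    apply ha3 h5
    calc a ^ 3 = a * a * a := by ring
      _ = (a * b) * (a * b) := by nth_rewrite 3 [e0]; ring
      _ = 1 := by rw [hab, one_mul]
  · have h6 : 5 ≤ r := by
      rcases Nat.lt_or_ge r 5 with h6 | h6
      · have h7 : r = 4 := by omega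
        rw [h7] at hr
        exact absurd hr (by decide)
      · exact h6
    have d3 : E 3 * D = (1 : F) • E 3 := by
      rw [hDM, ← mul_assoc, ← mul_assoc, ← mul_assoc, hzero 3 0 _ (hne 3 0 (by omega) (by omega) (by omega)),
        hzero 3 1 _ (hne 3 1 (by omega) (by omega) (by omega)), hzero 3 2 _ (hne 3 2 (by omega) (by omega) (by omega)),
        hzero 3 1 _ (hne 3 1 (by omega) (by omega) (by omega)), one_smul]
    have d4 : E 4 * D = (1 : F) • E 4 := by
      rw [hDM, ← mul_assoc, ← mul_assoc, ← mul_assoc, hzero 4 0 _ (hne 4 0 (by omega) (by omega) (by omega)),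
        hzero 4 1 _ (hne 4 1 (by omega) (by omega) (by omega)), hzero 4 2 _ (hne 4 2 (by omega) (by omega) (by omega)),
        hzero 4 1 _ (hne 4 1 (by omega) (by omega) (by omega)), one_smul]
    have e3 := hrel 3 _ _ d3 d4
    have e2 := hrel 2 _ _ d2 d3
    rw [mul_one] at e3 e2
    exact ha1 (e2.trans e3.symm)

end Cfsg.Agent.H245.EP
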